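import Cfsg.Prelude.Def_Classical
import Cfsg.Agent.H581.HC
import Cfsg.Agent.H164.HallFinal

/-!
# Hall coverings of alternating groups (helper937, for S4388)

`hc_alt` : an alternating group with a Hall covering has degree 5, 6 or 7; `hc_sym_seven` : the symmetric group of degree 7
has no Hall covering.
-/

set_option autoImplicit false

namespace Cfsg.Agent.H937.HCAlt

open Equiv Equiv.Perm Cfsg.Agent.H581 Cfsg.Agent.H164

/-- a fixed-point-free permutation does not lie in the stabiliser of a partition with a part of one element -/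
theorem not_mem_stabP {n : ℕ} (hn : 3 ≤ n) {Δ : Finset (Fin n)} (hΔ : Δ.card + 1 = Fintype.card (Fin n))
    {g : Perm (Fin n)} (hg : ∀ x, g x ≠ x) : g ∉ stabP Δ := by
  have hc : Δᶜ.card = 1 := by
    rw [Finset.card_compl]; omega
  obtain ⟨a, ha⟩ := Finset.card_eq_one.1 hc
  have hmem : ∀ x, x ∉ Δ ↔ x = a := by
    intro x
    rw [← Finset.mem_compl, ha, Finset.mem_singleton]
  rintro (h | h)
  · have h1 : g a ∉ Δ := by
      rw [h]; exact (hmem a).2 rfl
    exact hg a ((hmem _).1 h1)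
  · -- `g` would map `Δ` into the one-element complement
    have h1 : ∀ x ∈ Δ, g x = a := fun x hx => (hmem _).1 fun h2 => ((h x).1 h2) hx
    have h2 : 1 < Δ.card := by
      rw [Fintype.card_fin] at hΔ; omega
    obtain ⟨x, hx, y, hy, hxy⟩ := Finset.one_lt_card.1 h2
    exact hxy (g.injective ((h1 x hx).trans (h1 y hy).symm))

theorem piHall {G : Type*} [Group G] {σ : Set ℕ} {H : Subgroup G} (h : IsHallFor σ H) : Cfsg.IsPiHall σ H :=
  ⟨h.card, h.index⟩

/-- permutation with a given cycle type filling the whole set has no fixed points -/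
theorem no_fixed {n : ℕ} {g : Perm (Fin n)} (hg : g.cycleType.sum = n) : ∀ x, g x ≠ x := by
  intro x hx
  have h1 : g.support.card = n := by rw [← sum_cycleType, hg]
  have h2 : g.support = Finset.univ := by
    rw [← Finset.card_eq_iff_eq_univ, h1, Fintype.card_fin]
  have h3 : x ∈ g.support := by rw [h2]; exact Finset.mem_univ x
  exact (mem_support.1 h3) hx

/-- existence of elements of `Alt(n)` with given cycle type -/
theorem exists_alt {n : ℕ} (m : Multiset ℕ) (hm : m.sum ≤ n) (h2 : ∀ a ∈ m, 2 ≤ a)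
    (hs : Even (m.sum + Multiset.card m)) : ∃ g : alternatingGroup (Fin n), (g : Perm (Fin n)).cycleType = m := by
  obtain ⟨g, hg⟩ := (exists_with_cycleType_iff (α := Fin n) (m := m)).2 ⟨by rwa [Fintype.card_fin], h2⟩
  refine ⟨⟨g, ?_⟩, hg⟩
  rw [mem_alternatingGroup, sign_of_cycleType, hg]
  exact hs.neg_one_pow

theorem alt_eight {n : ℕ} (hn : 8 ≤ n) {σ : Set ℕ} (hc : HC (alternatingGroup (Fin n)) σ) : False := by
  -- elements of order 6 and 15
  have h3 : 3 ∈ σ := by
    obtain ⟨g, hg⟩ := exists_alt (n := n) {3, 2, 2} (by simp; omega) (by simp) (by decide)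
    refine hc.iso g 2 3 Nat.prime_two Nat.prime_three ?_ ?_ hc.two
    · rw [← Subgroup.orderOf_coe]
      exact dvd_of_mem_cycleType (by rw [hg]; simp)
    · rw [← Subgroup.orderOf_coe]
      exact dvd_of_mem_cycleType (by rw [hg]; simp)
  have h5 : 5 ∈ σ := by
    obtain ⟨g, hg⟩ := exists_alt (n := n) {5, 3} (by simp; omega) (by simp) (by decide)
    refine hc.iso g 3 5 Nat.prime_three Nat.prime_five ?_ ?_ h3
    · rw [← Subgroup.orderOf_coe]
      exact dvd_of_mem_cycleType (by rw [hg]; simp)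
    · rw [← Subgroup.orderOf_coe]
      exact dvd_of_mem_cycleType (by rw [hg]; simp)
  obtain ⟨l, hl, hld, hlσ⟩ := hc.ne
  have hln : l ≤ Fintype.card (Fin n) := alt_dvd hl hld
  have hone : ¬ OnePrime σ (Fintype.card (Fin n)) := by
    intro h
    have h6 := h 2 3 Nat.prime_two Nat.prime_three hc.two h3 (by rw [Fintype.card_fin]; omega)
      (by rw [Fintype.card_fin]; omega)
    omega
  -- every Hall subgroup is contained in the stabiliser of a point
  have key : ∀ K : Subgroup (alternatingGroup (Fin n)), IsHallFor σ K → n.Prime ∧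
      ∃ Δ : Finset (Fin n), Δ.card + 1 = Fintype.card (Fin n) ∧
        ∀ g ∈ K, (g : Perm (Fin n)) ∈ stabP Δ := by
    intro K hK
    obtain ⟨M, hM, hMK, -⟩ := alt_extend hone (hallAltSub_map (piHall hK))
    obtain ⟨Δ, hΔ, hcase⟩ := hall_sym hM hc.two h3 hl hln hlσ
    rcases hcase with ⟨h6, h7, -⟩ | ⟨-, -, h6, -⟩
    · rw [Fintype.card_fin] at h7
      refine ⟨h7, Δ, h6, fun g hg => ?_⟩
      have h8 : (g : Perm (Fin n)) ∈ M ⊓ alternatingGroup (Fin n) := by
        rw [hMK]; exact ⟨g, hg, rfl⟩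
      rw [← hΔ]; exact h8.1
    · exact absurd h5 h6
  obtain ⟨K, hK⟩ := hc.exists_hall (by
    obtain ⟨g, hg⟩ := exists_alt (n := n) {2, 2} (by simp; omega) (by simp) (by decide)
    have h6 : 2 ∣ orderOf g := by
      rw [← Subgroup.orderOf_coe]
      exact dvd_of_mem_cycleType (by rw [hg]; simp)
    exact h6.trans (orderOf_dvd_natCard g))
  obtain ⟨hnp, -⟩ := key K hK
  have hodd : Odd n := hnp.odd_of_ne_two (by omega)
  obtain ⟨g, hg⟩ := exists_alt (n := n) {2, 2, n - 4} (by simp; omega) (by simp; omega) (by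
    obtain ⟨k, rfl⟩ := hodd
    refine ⟨k + 2, ?_⟩
    simp; omega)
  obtain ⟨L, hgL, hL⟩ := hc.cov g 2 Nat.prime_two (by
    rw [← Subgroup.orderOf_coe]
    exact dvd_of_mem_cycleType (by rw [hg]; simp)) hc.two
  obtain ⟨-, Δ, hΔ, hΔ2⟩ := key L hL
  refine not_mem_stabP (by omega) hΔ (no_fixed ?_) (hΔ2 g hgL)
  rw [hg]; simp; omega

theorem hc_alt {S : Type*} [Group S] [Finite S] {sigma : Set ℕ} (hc : Cfsg.Agent.H581.HC S sigma)
    (h : Cfsg.IsAlternating S) :
    ∃ n, (n = 5 ∨ n = 6 ∨ n = 7) ∧ Nonempty (S ≃* alternatingGroup (Fin n)) := by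
  obtain ⟨n, hn, ⟨e⟩⟩ := h
  refine ⟨n, ?_, ⟨e⟩⟩
  by_contra hcon
  exact alt_eight (n := n) (by omega) (hc.congr e)

theorem hc_sym_seven {X : Type*} [Group X] {sigma : Set ℕ} (hc : Cfsg.Agent.H581.HC X sigma)
    (e : X ≃* Equiv.Perm (Fin 7)) : False := by
  have hc' := hc.congr e
  have hex : ∀ m : Multiset ℕ, m.sum ≤ 7 → (∀ a ∈ m, 2 ≤ a) → ∃ g : Perm (Fin 7), g.cycleType = m := by
    intro m h1 h2
    exact (exists_with_cycleType_iff (α := Fin 7) (m := m)).2 ⟨by rwa [Fintype.card_fin], h2⟩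
  have h3 : 3 ∈ sigma := by
    obtain ⟨g, hg⟩ := hex {3, 2} (by simp) (by simp)
    exact hc'.iso g 2 3 Nat.prime_two Nat.prime_three (dvd_of_mem_cycleType (by rw [hg]; simp))
      (dvd_of_mem_cycleType (by rw [hg]; simp)) hc.two
  obtain ⟨g, hg⟩ := hex {5, 2} (by simp) (by simp)
  have h5 : 5 ∈ sigma :=
    hc'.iso g 2 5 Nat.prime_two Nat.prime_five (dvd_of_mem_cycleType (by rw [hg]; simp))
      (dvd_of_mem_cycleType (by rw [hg]; simp)) hc.two
  obtain ⟨l, hl, hld, hlσ⟩ := hc'.ne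
  have hln : l ≤ Fintype.card (Fin 7) := by
    rw [Nat.card_perm, Nat.card_eq_fintype_card] at hld
    exact hl.dvd_factorial.mp hld
  obtain ⟨L, hgL, hL⟩ := hc'.cov g 2 Nat.prime_two (dvd_of_mem_cycleType (by rw [hg]; simp)) hc.two
  obtain ⟨Δ, hΔ, hcase⟩ := hall_sym (piHall hL) hc.two h3 hl hln hlσ
  rcases hcase with ⟨h6, -⟩ | ⟨-, -, h6, -⟩
  · refine not_mem_stabP (by omega) h6 (no_fixed (g := g) ?_) (hΔ ▸ hgL)
    rw [hg]; rfl
  · exact h6 h5

end Cfsg.Agent.H937.HCAlt
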