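import Cfsg.Agent.H937.SL3Aut
import Cfsg.Agent.H937.HCGen

/-!
# Almost simple groups with socle `PSL_3(q)` and Hall coverings (helper937, for S4388)
-/

set_option autoImplicit false
set_option linter.unusedSectionVars false

namespace Cfsg.Agent.H937.HCPsl3

open Matrix MulAction
open Cfsg.Agent.ClassicalGeometry.AutPSL.Root
open Cfsg.Agent.ClassicalGeometry.AutPSL.Auto
open Cfsg.Agent.ClassicalGeometry.AutPSL.Main
open Cfsg.Agent.CpAut.Psl
open Cfsg.Agent.H581 Cfsg.Agent.H937.HCGen Cfsg.Agent.H937.SL3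

/-- `SL_3` -/
abbrev SLt (F : Type*) [Field F] := Matrix.SpecialLinearGroup (Fin 3) F
/-- `PSL_3` -/
abbrev PSLt (F : Type*) [Field F] := Matrix.ProjectiveSpecialLinearGroup (Fin 3) F

section act

variable {X : Type*} [Group X] {S : Subgroup X} [S.Normal] {F : Type*} [Field F]

/-- the action of `X` on `PSL_3` -/
noncomputable def act (e : S ≃* PSLt F) : X →* MulAut (PSLt F) :=
  (MulAut.congr e).toMonoidHom.comp MulAut.conjNormal

theorem act_apply (e : S ≃* PSLt F) (x : X) (s : S) :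
    act e x (e s) = e ⟨x * s * x⁻¹, (inferInstance : S.Normal).conj_mem s s.2 x⟩ := by
  show e ((MulAut.conjNormal x : MulAut S) (e.symm (e s))) = _
  rw [e.symm_apply_apply]
  congr 1

theorem act_coe (e : S ≃* PSLt F) (s : S) : act e (s : X) = MulAut.conj (e s) := by
  apply MulEquiv.ext
  intro y
  obtain ⟨t, rfl⟩ := e.surjective y
  rw [act_apply, MulAut.conj_apply, ← map_inv, ← map_mul, ← map_mul]
  rfl

theorem act_injective (hC : Subgroup.centralizer (S : Set X) = ⊥) (e : S ≃* PSLt F) : Function.Injective (act e) := by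
  rw [injective_iff_map_eq_one]
  intro g hg
  have h1 : g ∈ Subgroup.centralizer (S : Set X) := by
    rw [Subgroup.mem_centralizer_iff]
    intro s hs
    have h2 : e ⟨g * s * g⁻¹, (inferInstance : S.Normal).conj_mem s hs g⟩ = e ⟨s, hs⟩ := by
      rw [← act_apply e g ⟨s, hs⟩, hg]; rfl
    have h3 : g * s * g⁻¹ = s := congrArg Subtype.val (e.injective h2)
    calc s * g = g * s * g⁻¹ * g := by rw [h3]
      _ = g * s := by group
  rw [hC] at h1
  exact Subgroup.mem_bot.1 h1

theorem lift_cj (b : SLt F) : lift (cj (Matrix.SpecialLinearGroup.toGL b)) = MulAut.conj (pr b) := by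
  apply MulEquiv.ext
  intro y
  obtain ⟨g, rfl⟩ := pr_surjective y
  rw [lift_pr, MulAut.conj_apply, ← map_inv, ← map_mul, ← map_mul]
  rfl

/-- change of the identification by the inverse transpose -/
noncomputable def tw (e : S ≃* PSLt F) : S ≃* PSLt F := e.trans (lift itr : MulAut (PSLt F))

theorem itr_inv : (itr : MulAut (SLt F))⁻¹ = itr := inv_eq_of_mul_eq_one_left itr_mul_itr

theorem act_tw (e : S ≃* PSLt F) (x : X) : act (tw e) x = lift itr * act e x * lift itr := by
  apply MulEquiv.ext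
  intro y
  obtain ⟨s, rfl⟩ := (tw e).surjective y
  rw [act_apply]
  have h1 : ∀ s : S, (tw e) s = lift itr (e s) := fun _ => rfl
  have h2 : (lift itr : MulAut (PSLt F)) * lift itr = 1 := by rw [← map_mul, itr_mul_itr, map_one]
  rw [h1, h1, MulAut.mul_apply, MulAut.mul_apply]
  have h3 : (lift itr : MulAut (PSLt F)) ((lift itr : MulAut (PSLt F)) (e s)) = e s := by
    rw [← MulAut.mul_apply, h2]; rfl
  rw [h3, act_apply]

/-- the preimage in `SL_3` of `L ∩ S` -/
def KK (e : S ≃* PSLt F) (L : Subgroup X) : Subgroup (SLt F) :=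
  (L.subgroupOf S).comap (e.symm.toMonoidHom.comp (pr : SLt F →* PSLt F))

theorem mem_KK {e : S ≃* PSLt F} {L : Subgroup X} {g : SLt F} : g ∈ KK e L ↔ ((e.symm (pr g) : S) : X) ∈ L := Iff.rfl

theorem index_KK (e : S ≃* PSLt F) (L : Subgroup X) : (KK e L).index = (L.subgroupOf S).index :=
  Subgroup.index_comap_of_surjective _ (e.symm.surjective.comp pr_surjective)

theorem KK_tw (e : S ≃* PSLt F) (L : Subgroup X) :
    KK (tw e) L = (KK e L).map (itr : MulAut (SLt F)).toMonoidHom := by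
  have h0 : ∀ g : SLt F, (tw e).symm (pr g) = e.symm (pr (itr g)) := by
    intro g
    rw [MulEquiv.symm_apply_eq]
    show pr g = lift itr (e (e.symm (pr (itr g))))
    rw [e.apply_symm_apply, lift_pr, ← MulAut.mul_apply, itr_mul_itr]
    rfl
  ext g
  rw [mem_KK, h0]
  constructor
  · intro h
    refine ⟨itr g, h, ?_⟩
    show (itr * itr : MulAut (SLt F)) g = g
    rw [itr_mul_itr]; rfl
  · rintro ⟨k, hk, rfl⟩
    show ((e.symm (pr ((itr * itr : MulAut (SLt F)) k)) : S) : X) ∈ L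
    rw [itr_mul_itr]
    exact hk

theorem KK_norm {e : S ≃* PSLt F} {L : Subgroup X} {l : X} (hl : l ∈ L) {α : MulAut (SLt F)}
    (h : act e l = lift α) {g : SLt F} (hg : g ∈ KK e L) : α g ∈ KK e L := by
  rw [mem_KK] at hg ⊢
  have h1 : pr (α g) = e ⟨l * (e.symm (pr g) : S) * l⁻¹, (inferInstance : S.Normal).conj_mem _ (e.symm (pr g)).2 l⟩ := by
    rw [← act_apply, h, e.apply_symm_apply, lift_pr]
  rw [h1, e.symm_apply_apply]
  exact L.mul_mem (L.mul_mem hl hg) (L.inv_mem hl)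

theorem KK_move {e : S ≃* PSLt F} {L : Subgroup X} (hLS : L ⊔ S = ⊤) {h : X} {α : MulAut (SLt F)}
    (hα : act e h = lift α) : ∃ b : SLt F, ∀ g ∈ KK e L, α (b * g * b⁻¹) ∈ KK e L := by
  have h1 : h ∈ L ⊔ S := by rw [hLS]; trivial
  rw [Subgroup.mem_sup_of_normal_right] at h1
  obtain ⟨l, hl, s, hs, rfl⟩ := h1
  obtain ⟨b, hb⟩ := pr_surjective ((e ⟨s, hs⟩)⁻¹)
  refine ⟨b, fun g hg => ?_⟩
  rw [mem_KK] at hg ⊢
  have h2 : pr (α (b * g * b⁻¹)) =
      e ⟨l * (e.symm (pr g) : S) * l⁻¹, (inferInstance : S.Normal).conj_mem _ (e.symm (pr g)).2 l⟩ := by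
    have h3 : act e s (pr (b * g * b⁻¹)) = pr g := by
      have h4 : pr (b * g * b⁻¹) = (e ⟨s, hs⟩)⁻¹ * pr g * (e ⟨s, hs⟩) := by
        rw [map_mul, map_mul, map_inv, hb, inv_inv]
      rw [h4, act_coe e ⟨s, hs⟩, MulAut.conj_apply]
      group
    rw [← lift_pr, ← hα, map_mul, MulAut.mul_apply, h3, ← act_apply, e.apply_symm_apply]
  rw [h2, e.symm_apply_apply]
  exact L.mul_mem (L.mul_mem hl hg) (L.inv_mem hl)

end act

end Cfsg.Agent.H937.HCPsl3
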