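import Cfsg.Agent.H937.HCPsl3

/-!
# Almost simple groups with socle `PSL_3(q)` and Hall coverings, part two (helper937, for S4388)
-/

set_option autoImplicit false
set_option linter.unusedSectionVars false

namespace Cfsg.Agent.H937.HCPsl3

open Matrix MulAction
open Cfsg.Agent.ClassicalGeometry.AutPSL.Root
open Cfsg.Agent.ClassicalGeometry.AutPSL.Auto
open Cfsg.Agent.ClassicalGeometry.AutPSL.Main
open Cfsg.Agent.CpAut.Psl
open Cfsg.Agent.H581 Cfsg.Agent.H937.HCGen Cfsg.Agent.H937.SL3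

/-- an invariant class of elements of order `p` -/
theorem mem_of_class {X : Type*} [Group X] [Finite X] {σ : Set ℕ} {S : Subgroup X} [S.Normal] (hS : S ≠ ⊤)
    (hσ : ∀ r : ℕ, r.Prime → r ∣ S.index → r ∈ σ) (hc : HC X σ)
    {p : ℕ} (hp : p.Prime) {x : X} (hx : orderOf x = p) (hconj : ∀ g : X, ∃ s ∈ S, s * x * s⁻¹ = g * x * g⁻¹) :
    p ∈ σ := by
  have hidx : S.index ≠ 1 := fun h => hS (Subgroup.index_eq_one.1 h)
  obtain ⟨t, ht, htd⟩ := Nat.exists_prime_and_dvd hidx
  have htσ : t ∈ σ := hσ t ht htd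
  let f : Subgroup.centralizer ({x} : Set X) →* X ⧸ S := (QuotientGroup.mk' S).comp (Subgroup.subtype _)
  have hf : Function.Surjective f := by
    intro y
    obtain ⟨g, rfl⟩ := QuotientGroup.mk_surjective y
    obtain ⟨s, hs, h2⟩ := hconj g
    have h3 : s⁻¹ * g ∈ Subgroup.centralizer ({x} : Set X) := by
      rw [Subgroup.mem_centralizer_singleton_iff]
      have h4 : s * x * s⁻¹ * g = g * x := by rw [h2]; group
      calc s⁻¹ * g * x = s⁻¹ * (g * x) := by group
        _ = s⁻¹ * (s * x * s⁻¹ * g) := by rw [h4]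
        _ = x * (s⁻¹ * g) := by group
    refine ⟨⟨_, h3⟩, ?_⟩
    show (((s⁻¹ * g : X)) : X ⧸ S) = (g : X ⧸ S)
    rw [QuotientGroup.mk_mul, QuotientGroup.mk_inv, (QuotientGroup.eq_one_iff s).2 hs, inv_one, one_mul]
  have h5 : Nat.card (X ⧸ S) ∣ Nat.card (Subgroup.centralizer ({x} : Set X)) :=
    Subgroup.card_dvd_of_surjective f hf
  have : Fact t.Prime := ⟨ht⟩
  obtain ⟨y, hy⟩ := exists_prime_orderOf_dvd_card' (G := Subgroup.centralizer ({x} : Set X)) t (htd.trans h5)
  refine hc.commute htσ (x := (y : X)) (y := x) ?_ ht hp ?_ ?_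
  · exact (Subgroup.mem_centralizer_singleton_iff.1 y.2)
  · rw [Subgroup.orderOf_coe, hy]
  · rw [hx]

section

variable {F : Type*} [Field F] [Finite F]

/-- every unit is a cube if `3` does not divide `q - 1` -/
theorem exists_cube (h3 : ¬ 3 ∣ Nat.card F - 1) (d : F) (hd : d ≠ 0) : ∃ c : F, c ≠ 0 ∧ c ^ 3 = d := by
  have hco : (Nat.card Fˣ).Coprime 3 := by
    rw [Nat.card_units]
    exact ((Nat.Prime.coprime_iff_not_dvd Nat.prime_three).2 h3).symm
  obtain ⟨c, hc⟩ := (powCoprime hco).surjective (Units.mk0 d hd)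
  refine ⟨c, c.ne_zero, ?_⟩
  have h1 : c ^ 3 = Units.mk0 d hd := hc
  have h2 := congrArg Units.val h1
  rwa [Units.val_pow_eq_pow_val, Units.val_mk0] at h2

/-- `PGL_3 = PSL_3` if `3` does not divide `q - 1` -/
theorem exists_sl (h3 : ¬ 3 ∣ Nat.card F - 1) (A : GL (Fin 3) F) :
    ∃ b : SLt F, cj A = cj (Matrix.SpecialLinearGroup.toGL b) := by
  obtain ⟨c, hc0, hc⟩ := exists_cube h3 (A : Matrix (Fin 3) (Fin 3) F).det
    (by
      have := A.isUnit
      rw [Matrix.isUnit_iff_isUnit_det] at this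
      exact this.ne_zero)
  have hdet : (c⁻¹ • (A : Matrix (Fin 3) (Fin 3) F)).det = 1 := by
    rw [det_smul, Fintype.card_fin, ← hc, ← mul_pow, inv_mul_cancel₀ hc0, one_pow]
  refine ⟨⟨_, hdet⟩, ?_⟩
  apply MulEquiv.ext
  intro g
  apply Subtype.ext
  rw [coe_cj, coe_cj]
  have h1 : ((Matrix.SpecialLinearGroup.toGL (⟨_, hdet⟩ : SLt F) : GL (Fin 3) F) : Matrix (Fin 3) (Fin 3) F) =
      c⁻¹ • (A : Matrix (Fin 3) (Fin 3) F) := rfl
  have h2 : (((Matrix.SpecialLinearGroup.toGL (⟨_, hdet⟩ : SLt F))⁻¹ : GL (Fin 3) F) : Matrix (Fin 3) (Fin 3) F) =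
      c • ((A⁻¹ : GL (Fin 3) F) : Matrix (Fin 3) (Fin 3) F) := by
    have h3 : c • ((A⁻¹ : GL (Fin 3) F) : Matrix (Fin 3) (Fin 3) F) *
        (c⁻¹ • (A : Matrix (Fin 3) (Fin 3) F)) = 1 := by
      rw [smul_mul_smul_comm, mul_inv_cancel₀ hc0, ← Units.val_mul, inv_mul_cancel, Units.val_one, one_smul]
    rw [Matrix.coe_units_inv, h1]
    exact Matrix.inv_eq_left_inv h3
  rw [h1, h2, smul_mul_assoc, smul_mul_assoc, Matrix.mul_smul, smul_smul, inv_mul_cancel₀ hc0, one_smul]

theorem pr_injective (h3 : ¬ 3 ∣ Nat.card F - 1) : Function.Injective (pr : SLt F →* PSLt F) := by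
  rw [injective_iff_map_eq_one]
  intro g hg
  rw [pr_eq_one_iff, Matrix.SpecialLinearGroup.mem_center_iff] at hg
  obtain ⟨r, hr, h⟩ := hg
  rw [Fintype.card_fin] at hr
  have hr0 : r ≠ 0 := by rintro rfl; norm_num at hr
  have h1 : r = 1 := by
    have hco : (Nat.card Fˣ).Coprime 3 := by
      rw [Nat.card_units]
      exact ((Nat.Prime.coprime_iff_not_dvd Nat.prime_three).2 h3).symm
    have h2 : (powCoprime hco) (Units.mk0 r hr0) = (powCoprime hco) 1 := by
      show (Units.mk0 r hr0) ^ 3 = (1 : Fˣ) ^ 3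
      apply Units.ext
      rw [one_pow, Units.val_pow_eq_pow_val, Units.val_mk0, hr, Units.val_one]
    have h3 := congrArg Units.val ((powCoprime hco).injective h2)
    rwa [Units.val_mk0, Units.val_one] at h3
  apply Subtype.ext
  rw [← h, h1, map_one]
  rfl

/-- block matrices -/
def jm (M : Matrix (Fin 2) (Fin 2) F) (d : F) : Matrix (Fin 3) (Fin 3) F :=
  !![M 0 0, M 0 1, 0; M 1 0, M 1 1, 0; 0, 0, d]

theorem jm_mul (M N : Matrix (Fin 2) (Fin 2) F) (d e : F) : jm (M * N) (d * e) = jm M d * jm N e := by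
  ext i j
  fin_cases i <;> fin_cases j <;> simp [jm, Matrix.mul_apply, Fin.sum_univ_succ]

theorem jm_det (M : Matrix (Fin 2) (Fin 2) F) (d : F) : (jm M d).det = M.det * d := by
  rw [Matrix.det_fin_three, Matrix.det_fin_two]
  simp [jm]
  ring

theorem jm_one : jm (1 : Matrix (Fin 2) (Fin 2) F) 1 = 1 := by
  ext i j
  fin_cases i <;> fin_cases j <;> simp [jm]

/-- the block embedding of `GL_2` in `SL_3` -/
noncomputable def jj : GL (Fin 2) F →* SLt F where
  toFun A := ⟨jm (A : Matrix (Fin 2) (Fin 2) F) (A : Matrix (Fin 2) (Fin 2) F).det⁻¹, by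
      have h := A.isUnit
      rw [Matrix.isUnit_iff_isUnit_det] at h
      rw [jm_det, mul_inv_cancel₀ h.ne_zero]⟩
  map_one' := by
    apply Subtype.ext
    show jm ((1 : GL (Fin 2) F) : Matrix (Fin 2) (Fin 2) F) _ = 1
    rw [Units.val_one, det_one, inv_one, jm_one]
  map_mul' A B := by
    apply Subtype.ext
    show jm ((A * B : GL (Fin 2) F) : Matrix (Fin 2) (Fin 2) F) (((A * B : GL (Fin 2) F) : Matrix (Fin 2) (Fin 2) F).det)⁻¹
      = jm (A : Matrix (Fin 2) (Fin 2) F) (A : Matrix (Fin 2) (Fin 2) F).det⁻¹ *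
        jm (B : Matrix (Fin 2) (Fin 2) F) (B : Matrix (Fin 2) (Fin 2) F).det⁻¹
    rw [← jm_mul, Units.val_mul, det_mul, mul_inv]

theorem jj_injective : Function.Injective (jj : GL (Fin 2) F →* SLt F) := by
  intro A B h
  have h1 : ∀ i j : Fin 3, (jj A : Matrix (Fin 3) (Fin 3) F) i j = (jj B : Matrix (Fin 3) (Fin 3) F) i j := by
    intro i j; rw [h]
  apply Units.ext
  ext i j
  fin_cases i <;> fin_cases j
  · exact h1 0 0
  · exact h1 0 1
  · exact h1 1 0
  · exact h1 1 1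

theorem card_GL2 : Nat.card (GL (Fin 2) F) = Nat.card F * (Nat.card F ^ 2 - 1) * (Nat.card F - 1) := by
  have : Fintype F := Fintype.ofFinite F
  rw [Nat.card_eq_fintype_card (α := F), Matrix.card_GL_field, Fin.prod_univ_two]
  have h1 : 1 ≤ Fintype.card F := Fintype.card_pos
  obtain ⟨k, hk⟩ := Nat.exists_eq_add_of_le h1
  simp only [Fin.val_zero, Fin.val_one, pow_zero, pow_one]
  have h2 : Fintype.card F ^ 2 - Fintype.card F = Fintype.card F * (Fintype.card F - 1) := by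
    rw [Nat.mul_sub, mul_one, sq]
  rw [h2]
  ring

/-- the primes dividing `q (q² - 1)` lie in `σ` -/
theorem mem_sigma {X : Type*} [Group X] [Finite X] {σ : Set ℕ} {S : Subgroup X} (hc : HC X σ) (e : S ≃* PSLt F)
    (h3 : ¬ 3 ∣ Nat.card F - 1) (hq : 3 ≤ Nat.card F) {r : ℕ} (hr : r.Prime)
    (hd : r ∣ Nat.card F * (Nat.card F ^ 2 - 1) * (Nat.card F - 1)) : r ∈ σ := by
  -- the embedding of `GL_2` into `X`
  let f : GL (Fin 2) F →* X := S.subtype.comp (e.symm.toMonoidHom.comp ((pr : SLt F →* PSLt F).comp jj))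
  have hf : Function.Injective f := S.subtype_injective.comp (e.symm.injective.comp ((pr_injective h3).comp jj_injective))
  -- a central element of prime order
  obtain ⟨l, hl, hld⟩ := Nat.exists_prime_and_dvd (n := Nat.card F - 1) (by omega)
  have : Fact l.Prime := ⟨hl⟩
  obtain ⟨a, ha⟩ := exists_prime_orderOf_dvd_card' (G := Fˣ) l (by rwa [Nat.card_units])
  let z : GL (Fin 2) F := Units.map (algebraMap F (Matrix (Fin 2) (Fin 2) F) : F →* Matrix (Fin 2) (Fin 2) F) a
  have hz : orderOf z = l := by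
    rw [← ha]
    exact orderOf_injective _ (Units.map_injective (algebraMap F (Matrix (Fin 2) (Fin 2) F)).injective) a
  have hzc : ∀ y : GL (Fin 2) F, Commute z y := by
    intro y
    apply Units.ext
    exact Algebra.commutes (a : F) (y : Matrix (Fin 2) (Fin 2) F)
  have key : ∀ {s : ℕ}, s.Prime → s ∣ Nat.card (GL (Fin 2) F) → ∃ y : GL (Fin 2) F, orderOf y = s := by
    intro s hs hsd
    have : Fact s.Prime := ⟨hs⟩
    exact exists_prime_orderOf_dvd_card' s hsd
  have h2 : 2 ∣ Nat.card (GL (Fin 2) F) := by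
    rw [card_GL2]
    apply Dvd.dvd.mul_right
    rcases Nat.even_or_odd (Nat.card F) with h | h
    · exact h.two_dvd.mul_right _
    · apply Dvd.dvd.mul_left
      obtain ⟨k, hk⟩ := h
      rw [hk]
      have : (2 * k + 1) ^ 2 - 1 = 2 * (2 * k * k + 2 * k) := by
        have : (2 * k + 1) ^ 2 = 2 * (2 * k * k + 2 * k) + 1 := by ring
        omega
      rw [this]
      exact dvd_mul_right _ _
  have hlσ : l ∈ σ := by
    obtain ⟨y, hy⟩ := key Nat.prime_two h2
    refine hc.commute hc.two (x := f y) (y := f z) ?_ Nat.prime_two hl ?_ ?_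
    · exact ((hzc y).symm.map f)
    · rw [orderOf_injective f hf, hy]
    · rw [orderOf_injective f hf, hz]
  obtain ⟨y, hy⟩ := key hr (by rw [card_GL2]; exact hd)
  refine hc.commute hlσ (x := f z) (y := f y) ((hzc y).map f) hl hr ?_ ?_
  · rw [orderOf_injective f hf, hz]
  · rw [orderOf_injective f hf, hy]

end

end Cfsg.Agent.H937.HCPsl3
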