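import Cfsg.Agent.H937.HCPsl3B

/-!
# Almost simple groups with socle `PSL_3(q)` and Hall coverings: the theorem (helper937, for S4388)
-/

set_option autoImplicit false
set_option linter.unusedSectionVars false

namespace Cfsg.Agent.H937.HCPsl3

open Matrix MulAction
open Cfsg.Agent.ClassicalGeometry.AutPSL.Root
open Cfsg.Agent.ClassicalGeometry.AutPSL.Auto
open Cfsg.Agent.ClassicalGeometry.AutPSL.Main
open Cfsg.Agent.CpAut.Psl
open Cfsg.Agent.H581 Cfsg.Agent.H937.HCGen Cfsg.Agent.H937.SL3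

section

variable {X : Type*} [Group X] [Finite X] {σ : Set ℕ} {S : Subgroup X} [S.Normal] {F : Type*} [Field F] [Finite F]

theorem le_stab {p : ℕ} [hp : Fact p.Prime] [CharP F p] (hpσ : p ∈ σ) (e : S ≃* PSLt F) {L : Subgroup X}
    (hL : IsHallFor σ L) (hne : L.subgroupOf S ≠ ⊤) :
    (∃ x : Projectivization F (Fin 3 → F), KK e L ≤ stabilizer (SLt F) x) ∨
    (∃ x : Projectivization F (Fin 3 → F), KK (tw e) L ≤ stabilizer (SLt F) x) := by
  have h1 : ¬ p ∣ (KK e L).index := by
    rw [index_KK]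
    exact (hall_inf (S := S) hL).index p hp.out hpσ
  have h2 : KK e L ≠ ⊤ := by
    intro h
    apply hne
    rw [← Subgroup.index_eq_one, ← index_KK e L, h, Subgroup.index_top]
  obtain ⟨W, hW0, hW1, hW⟩ := exists_invariant (p := p) h1 h2
  rcases point_or_line hW0 hW1 hW with h | ⟨x, hx⟩
  · exact Or.inl h
  · right
    refine ⟨x, ?_⟩
    rw [KK_tw]
    exact hx

theorem eq_stab (hc : HC X σ) (e : S ≃* PSLt F) (h3 : ¬ 3 ∣ Nat.card F - 1) (hq : 3 ≤ Nat.card F) {L : Subgroup X}
    (hL : IsHallFor σ L) {x : Projectivization F (Fin 3 → F)} (hx : KK e L ≤ stabilizer (SLt F) x) :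
    KK e L = stabilizer (SLt F) x := by
  apply stab_eq_of_le hx
  rw [sum_three]
  have h1 : (KK e L).index ∣ Nat.card F ^ 3 * (Nat.card F ^ 2 - 1) * (Nat.card F - 1) *
      (Nat.card F ^ 2 + Nat.card F + 1) := by
    rw [← card_SL3]
    exact (KK e L).index_dvd_card
  have h2 : (KK e L).index.Coprime (Nat.card F ^ 3 * (Nat.card F ^ 2 - 1) * (Nat.card F - 1)) := by
    rw [Nat.coprime_iff_gcd_eq_one]
    by_contra hne
    obtain ⟨r, hr, hd⟩ := Nat.exists_prime_and_dvd hne
    have hd1 := hd.trans (Nat.gcd_dvd_left _ _)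
    have hd2 := hd.trans (Nat.gcd_dvd_right _ _)
    have h4 : r ∣ Nat.card F * (Nat.card F ^ 2 - 1) * (Nat.card F - 1) := by
      rcases hr.dvd_mul.1 hd2 with h | h
      · rcases hr.dvd_mul.1 h with h | h
        · exact ((hr.dvd_of_dvd_pow h).mul_right _).mul_right _
        · exact (h.mul_left _).mul_right _
      · exact h.mul_left _
    rw [index_KK] at hd1
    exact (hall_inf (S := S) hL).index r hr (mem_sigma hc e h3 hq hr h4) hd1
  exact Nat.le_of_dvd (by positivity) (h2.dvd_of_dvd_mul_left h1)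

theorem no_graph_type {e : S ≃* PSLt F} {L : Subgroup X} (hLS : L ⊔ S = ⊤) {v : Fin 3 → F} (hv : v ≠ 0)
    (hK : KK e L = stabilizer (SLt F) (Projectivization.mk F v hv)) {h : X} {A : GL (Fin 3) F} {τ : F ≃+* F}
    (hα : act e h = lift (cj A * fld τ * itr)) : False := by
  obtain ⟨b, hb⟩ := KK_move hLS hα
  have hbv : b • v ≠ 0 := (smul_ne_zero_iff_ne b).2 hv
  refine no_graph hbv (comp_ne_zero τ.symm (gl_ne_zero A⁻¹ hv)) fun g hg => ?_
  have h1 : b⁻¹ * g * b ∈ KK e L := by
    rw [hK, mem_stabilizer_iff, mul_smul, mul_smul, Projectivization.smul_mk, mem_stabilizer_iff.1 hg,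
      ← Projectivization.smul_mk, inv_smul_smul]
  have h2 := hb _ h1
  rw [hK] at h2
  have h3 : b * (b⁻¹ * g * b) * b⁻¹ = g := by group
  rw [h3] at h2
  exact (semi_iff A τ hv _).1 h2

theorem exists_field {p : ℕ} [Fact p.Prime] [CharP F p] (hS : S ≠ ⊤) (hC : Subgroup.centralizer (S : Set X) = ⊥)
    (h3 : ¬ 3 ∣ Nat.card F - 1) (e : S ≃* PSLt F)
    (hng : ∀ (h : X) (A : GL (Fin 3) F) (τ : F ≃+* F), act e h ≠ lift (cj A * fld τ * itr)) :
    ∃ (τ : F ≃+* F) (t : ℕ) (x : X), t.Prime ∧ orderOf τ = t ∧ act e x = lift (fld τ) ∧ x ∉ S := by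
  have : Fintype F := Fintype.ofFinite F
  have hfin : Finite (F ≃+* F) :=
    Finite.of_injective (fun e : F ≃+* F => (e : F → F)) (fun a b h => RingEquiv.ext (congrFun h))
  obtain ⟨h, hh⟩ : ∃ h : X, h ∉ S := by
    by_contra hcon
    push Not at hcon
    exact hS (eq_top_iff.2 fun x _ => hcon x)
  obtain ⟨y, τ, hy⟩ : ∃ (y : X) (τ : F ≃+* F), act e y = lift (fld τ) ∧ τ ≠ 1 := by
    rcases surj_three p le_rfl (act e h) with ⟨A, τ, hA⟩ | ⟨A, τ, hA⟩
    · obtain ⟨b, hb⟩ := exists_sl h3 A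
      obtain ⟨s, hs⟩ := e.surjective (pr b)
      have h1 : act e ((s : X)⁻¹ * h) = lift (fld τ) := by
        rw [map_mul, map_inv, act_coe, hs, hA, map_mul lift, hb, lift_cj, inv_mul_cancel_left]
      refine ⟨_, τ, h1, ?_⟩
      rintro rfl
      rw [map_one, map_one, ← map_one (act e)] at h1
      have h2 := act_injective hC e h1
      rw [inv_mul_eq_one] at h2
      exact hh (h2 ▸ s.2)
    · exact absurd hA (hng h A τ)
  obtain ⟨hy, hτ⟩ := hy
  obtain ⟨t, ht, htd⟩ := Nat.exists_prime_and_dvd (n := orderOf τ) (fun h => hτ (orderOf_eq_one_iff.1 h))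
  have hord : orderOf (τ ^ (orderOf τ / t)) = t := orderOf_pow_orderOf_div (orderOf_pos τ).ne' htd
  refine ⟨τ ^ (orderOf τ / t), t, y ^ (orderOf τ / t), ht, hord, ?_, ?_⟩
  · rw [map_pow, hy, map_pow fld, map_pow lift]
  · intro hmem
    obtain ⟨b, hb⟩ := pr_surjective (e ⟨_, hmem⟩)
    have h1 : act e (y ^ (orderOf τ / t)) = lift (cj (Matrix.SpecialLinearGroup.toGL b) * fld 1) := by
      rw [map_one fld, mul_one, lift_cj, hb]
      exact act_coe e ⟨_, hmem⟩
    rw [map_pow, hy, ← map_pow lift, ← map_pow fld] at h1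
    have h2 := (injective_aux h1.symm).2
    rw [← h2, orderOf_one] at hord
    exact ht.one_lt.ne hord

omit [Finite F] in
theorem cj_toGL (a g : SLt F) : cj (Matrix.SpecialLinearGroup.toGL a) g = a * g * a⁻¹ := rfl

omit [Finite F] in
theorem itr_itr (g : SLt F) : (itr : MulAut (SLt F)) ((itr : MulAut (SLt F)) g) = g := by
  rw [← MulAut.mul_apply, itr_mul_itr]; rfl

omit [Finite F] in
theorem fld_itr (τ : F ≃+* F) (g : SLt F) :
    (fld τ : MulAut (SLt F)) ((itr : MulAut (SLt F)) g) = (itr : MulAut (SLt F)) ((fld τ : MulAut (SLt F)) g) := by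
  apply Subtype.ext
  ext i j
  rw [coe_fld_apply, coe_itr, coe_itr, transpose_apply, transpose_apply, ← map_inv, coe_fld_apply]

omit [Finite F] in
theorem itr_emb (τ : F ≃+* F) (c : SLt ↥(fixf τ)) :
    (itr : MulAut (SLt F)) (emb τ c) = emb τ ((itr : MulAut (SLt ↥(fixf τ))) c) := by
  apply Subtype.ext
  ext i j
  rw [coe_itr, coe_emb, coe_itr, transpose_apply, transpose_apply, ← map_inv, coe_emb]

theorem dvd_pow_three {r Q t : ℕ} (hd : r ∣ Q ^ 2 + Q + 1) (ht : t.Prime) (h3 : t ≠ 3) :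
    r ∣ (Q ^ t) ^ 2 + Q ^ t + 1 := by
  rw [← ZMod.natCast_eq_zero_iff] at hd ⊢
  push_cast at hd ⊢
  set a : ZMod r := (Q : ZMod r)
  have h1 : a ^ 3 = 1 := by
    have : a ^ 3 - 1 = (a - 1) * (a ^ 2 + a + 1) := by ring
    rw [hd, mul_zero, sub_eq_zero] at this
    exact this
  have h2 : a ^ t = a ^ (t % 3) := by
    conv_lhs => rw [← Nat.div_add_mod t 3, pow_add, pow_mul, h1, one_pow, one_mul]
  have h4 : t % 3 ≠ 0 := by
    intro h
    exact h3 ((Nat.prime_dvd_prime_iff_eq Nat.prime_three ht).1 (Nat.dvd_of_mod_eq_zero h)).symm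
  rw [h2]
  rcases (by omega : t % 3 = 1 ∨ t % 3 = 2) with h | h
  · rw [h, pow_one]; exact hd
  · rw [h]
    have : (a ^ 2) ^ 2 + a ^ 2 + 1 = a ^ 3 * a + a ^ 2 + 1 := by ring
    rw [this, h1, one_mul, ← hd]
    ring

theorem psl3_odd {p : ℕ} [Fact p.Prime] [CharP F p] (hS : S ≠ ⊤) (hC : Subgroup.centralizer (S : Set X) = ⊥)
    (hσ : ∀ r : ℕ, r.Prime → r ∣ S.index → r ∈ σ) (hc : HC X σ) (hq : 3 ≤ Nat.card F)
    (h3 : ¬ 3 ∣ Nat.card F - 1) (e : S ≃* PSLt F) : False := by
  have : Fintype F := Fintype.ofFinite F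
  have hpσ : p ∈ σ := by
    refine mem_sigma hc e h3 hq Fact.out ?_
    obtain ⟨n, -, hn⟩ := FiniteField.card F p
    rw [Nat.card_eq_fintype_card, hn]
    exact ((dvd_pow_self p n.ne_zero).mul_right _).mul_right _
  have h2S : 2 ∣ Nat.card X := by
    have h1 : 2 ∣ Nat.card (GL (Fin 2) F) := by
      rw [card_GL2]
      apply Dvd.dvd.mul_right
      rcases Nat.even_or_odd (Nat.card F) with h | h
      · exact h.two_dvd.mul_right _
      · apply Dvd.dvd.mul_left
        obtain ⟨k, hk⟩ := h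
        rw [hk]
        have : (2 * k + 1) ^ 2 - 1 = 2 * (2 * k * k + 2 * k) := by
          have : (2 * k + 1) ^ 2 = 2 * (2 * k * k + 2 * k) + 1 := by ring
          omega
        rw [this]
        exact dvd_mul_right _ _
    let f : GL (Fin 2) F →* X := S.subtype.comp (e.symm.toMonoidHom.comp ((pr : SLt F →* PSLt F).comp jj))
    have hf : Function.Injective f :=
      S.subtype_injective.comp (e.symm.injective.comp ((pr_injective h3).comp jj_injective))
    exact h1.trans (Subgroup.card_dvd_of_injective f hf)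
  obtain ⟨L, hL⟩ := hc.exists_hall h2S
  have hLS := sup_eq_top hσ hL
  -- choose the identification
  obtain ⟨e, v, hv, hK⟩ : ∃ (e : S ≃* PSLt F) (v : Fin 3 → F) (hv : v ≠ 0),
      KK e L = stabilizer (SLt F) (Projectivization.mk F v hv) := by
    rcases le_stab hpσ e hL (hall_ne_top hσ hc hL) with ⟨x, hx⟩ | ⟨x, hx⟩
    · induction x using Projectivization.ind with | h v hv =>
      exact ⟨e, v, hv, eq_stab hc e h3 hq hL hx⟩
    · induction x using Projectivization.ind with | h v hv =>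
      exact ⟨tw e, v, hv, eq_stab hc _ h3 hq hL hx⟩
  obtain ⟨τ, t, x, ht, hτ, hx, hxS⟩ := exists_field (p := p) hS hC h3 e
    fun h A τ hα => no_graph_type hLS hv hK hα
  -- the order of `x` modulo `S`
  have hxt : orderOf (x : X ⧸ S) = t := by
    have h1 : x ^ t = 1 := by
      apply act_injective hC e
      rw [map_pow, hx, ← map_pow lift, ← map_pow fld, ← hτ, pow_orderOf_eq_one, map_one, map_one, map_one]
    have h2 : (x : X ⧸ S) ^ t = 1 := by rw [← QuotientGroup.mk_pow, h1]; rfl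
    rcases (Nat.dvd_prime ht).1 (orderOf_dvd_of_pow_eq_one h2) with h | h
    · exact absurd ((QuotientGroup.eq_one_iff x).1 (orderOf_eq_one_iff.1 h)) hxS
    · exact h
  have htσ : t ∈ σ := hσ t ht (by
    rw [← hxt]
    exact orderOf_dvd_natCard _)
  -- the subfield
  set Q := Nat.card ↥(fixf τ) with hQ
  have hQ2 : 2 ≤ Q := Finite.one_lt_card
  have hQt : Nat.card F = Q ^ t := by
    rw [Nat.card_eq_fintype_card, hQ]
    exact Cfsg.Agent.CpAutU.Fld.card_fixf hτ
  obtain ⟨r, hr, hr3, hrd⟩ := exists_prime hQ2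
  have : Fact r.Prime := ⟨hr⟩
  obtain ⟨c, hcr⟩ := exists_prime_orderOf_dvd_card' (G := Matrix.SpecialLinearGroup (Fin 3) ↥(fixf τ)) r (by
    rw [card_SL3]
    exact hrd.mul_left _)
  have hemb : Function.Injective (emb (ι := Fin 3) τ) := by
    intro a b hab
    apply Subtype.ext
    ext i j
    exact congrFun (congrFun (congrArg Subtype.val hab) i) j
  obtain ⟨y, hy⟩ := e.surjective (pr (emb τ c))
  have hyr : orderOf (y : X) = r := by
    rw [Subgroup.orderOf_coe, ← hcr, ← orderOf_injective _ hemb c, ← orderOf_injective _ (pr_injective h3) (emb τ c),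
      ← hy, MulEquiv.orderOf_eq]
  have hxy : Commute x (y : X) := by
    have h1 : act e x (e y) = e y := by
      rw [hx, hy, lift_pr, fld_emb]
    rw [act_apply] at h1
    have h2 : x * y * x⁻¹ = y := congrArg Subtype.val (e.injective h1)
    show x * y = y * x
    calc x * (y : X) = x * y * x⁻¹ * x := by group
      _ = y * x := by rw [h2]
  have hxt' : t ∣ orderOf x := by
    rw [← hxt]
    exact orderOf_map_dvd (QuotientGroup.mk' S) x
  rcases eq_or_ne t 3 with h | h
  · subst h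
    -- `g = y x`
    have hg3 : 3 ∣ orderOf ((y : X) * x) := by
      rw [← hxt]
      have h1 : (((y : X) * x : X) : X ⧸ S) = (x : X ⧸ S) := by
        rw [QuotientGroup.mk_mul, (QuotientGroup.eq_one_iff (y : X)).2 y.2, one_mul]
      rw [← h1]
      exact orderOf_map_dvd (QuotientGroup.mk' S) _
    have hτ3 : τ ^ 3 = 1 := by rw [← hτ, pow_orderOf_eq_one]
    obtain ⟨L2, hg, hL2⟩ := hc.cov _ 3 Nat.prime_three hg3 htσ
    have hact : act e ((y : X) * x) = lift (cj (Matrix.SpecialLinearGroup.toGL (emb τ c)) * fld τ) := by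
      rw [map_mul (act e), act_coe, hy, hx, ← lift_cj, ← map_mul]
    rcases le_stab hpσ e hL2 (hall_ne_top hσ hc hL2) with ⟨x', hx'⟩ | ⟨x', hx'⟩
    · induction x' using Projectivization.ind with | h w hw =>
      have hK2 := eq_stab hc e h3 hq hL2 hx'
      refine core_three hτ3 hr hcr hr3 hrd hw fun g hg' => ?_
      rw [← hK2] at hg' ⊢
      exact KK_norm hg hact hg'
    · induction x' using Projectivization.ind with | h w hw =>
      have hK2 := eq_stab hc _ h3 hq hL2 hx'
      have hact2 : act (tw e) ((y : X) * x) =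
          lift (cj (Matrix.SpecialLinearGroup.toGL (emb τ ((itr : MulAut _) c))) * fld τ) := by
        rw [act_tw, hact, ← map_mul, ← map_mul]
        congr 1
        apply MulEquiv.ext
        intro k
        rw [MulAut.mul_apply, MulAut.mul_apply, MulAut.mul_apply, MulAut.mul_apply, cj_toGL, cj_toGL, map_mul, map_mul,
          map_inv, fld_itr, itr_itr, itr_emb]
      refine core_three (c := (itr : MulAut _) c) hτ3 hr (by rw [MulEquiv.orderOf_eq, hcr]) hr3 hrd hw fun g hg' => ?_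
      rw [← hK2] at hg' ⊢
      exact KK_norm hg hact2 hg'
  · -- `r ∈ σ` divides the index
    have hrσ : r ∈ σ := hc.commute htσ hxy ht hr hxt' (by rw [hyr])
    have h1 : (KK e L).index = Nat.card F ^ 2 + Nat.card F + 1 := by
      rw [hK, index_stab, sum_three]
    have h2 : r ∣ Nat.card F ^ 2 + Nat.card F + 1 := by
      rw [hQt]
      exact dvd_pow_three hrd ht h
    rw [← h1, index_KK] at h2
    exact (hall_inf (S := S) hL).index r hr hrσ h2

end

end Cfsg.Agent.H937.HCPsl3
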