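import Cfsg.Agent.H937.HCPsl3C

/-!
# Almost simple groups with socle `PSL_3(q)` and Hall coverings: `q = 4` and the final theorem (helper937, for S4388)
-/

set_option autoImplicit false
set_option linter.unusedSectionVars false

namespace Cfsg.Agent.H937.HCPsl3

open Matrix MulAction
open Cfsg.Agent.ClassicalGeometry.AutPSL.Root
open Cfsg.Agent.ClassicalGeometry.AutPSL.Auto
open Cfsg.Agent.ClassicalGeometry.AutPSL.Main
open Cfsg.Agent.CpAut.Psl
open Cfsg.Agent.H581 Cfsg.Agent.H937.HCGen Cfsg.Agent.H937.SL3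

section

variable {F : Type*} [Field F]

/-- the matrix of the cyclic permutation -/
def cycM (F : Type*) [Field F] : Matrix (Fin 3) (Fin 3) F := !![0, 0, 1; 1, 0, 0; 0, 1, 0]

theorem det_cycM : (cycM F).det = 1 := by
  rw [det_fin_three]; simp [cycM]

/-- the cyclic permutation -/
def cyc (F : Type*) [Field F] : SLt F := ⟨cycM F, det_cycM⟩

theorem cyc_mul_transpose : cycM F * (cycM F)ᵀ = 1 := by
  ext i j
  fin_cases i <;> fin_cases j <;> simp [cycM, Matrix.mul_apply, Fin.sum_univ_succ]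

theorem itr_cyc : (itr : MulAut (SLt F)) (cyc F) = cyc F := by
  have h1 : (cyc F).transpose = (cyc F)⁻¹ := by
    symm
    rw [inv_eq_iff_mul_eq_one]
    apply Subtype.ext
    exact cyc_mul_transpose
  have h2 : (cyc F)⁻¹.transpose = cyc F := by
    rw [← h1]
    apply Subtype.ext
    exact transpose_transpose _
  exact h2

theorem fld_cyc (τ : F ≃+* F) : (fld τ : MulAut (SLt F)) (cyc F) = cyc F := by
  apply Subtype.ext
  ext i j
  rw [coe_fld_apply]
  show τ (cycM F i j) = cycM F i j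
  fin_cases i <;> fin_cases j <;> simp [cycM]

theorem cyc_cube : (cyc F) ^ 3 = 1 := by
  apply Subtype.ext
  show (cycM F) ^ 3 = 1
  ext i j
  fin_cases i <;> fin_cases j <;> simp [cycM, pow_succ, Matrix.mul_apply, Fin.sum_univ_succ]

theorem order_cyc : orderOf (pr (cyc F)) = 3 := by
  have : Fact (Nat.Prime 3) := ⟨Nat.prime_three⟩
  refine orderOf_eq_prime (by rw [← map_pow, cyc_cube, map_one]) fun h => ?_
  rw [pr_eq_one_iff, Matrix.SpecialLinearGroup.mem_center_iff] at h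
  obtain ⟨r, -, hr⟩ := h
  have h1 := congrFun (congrFun hr 0) 2
  have h2 : (cyc F : Matrix (Fin 3) (Fin 3) F) 0 2 = 1 := by
    show cycM F 0 2 = 1
    simp [cycM]
  rw [h2, scalar_apply, diagonal_apply_ne _ (by decide)] at h1
  exact zero_ne_one h1

/-- an element of `GL_3` commuting with the cyclic permutation, with given determinant -/
theorem exists_comm (h3 : (3 : F) = 1) (d : F) (hd : d ≠ 0) :
    ∃ B : GL (Fin 3) F, (B : Matrix (Fin 3) (Fin 3) F) * cycM F = cycM F * (B : Matrix (Fin 3) (Fin 3) F) ∧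
      (B : Matrix (Fin 3) (Fin 3) F).det = d := by
  let M : Matrix (Fin 3) (Fin 3) F := !![1 + (d - 1), d - 1, d - 1; d - 1, 1 + (d - 1), d - 1; d - 1, d - 1, 1 + (d - 1)]
  have hdet : M.det = d := by
    rw [det_fin_three]
    simp [M]
    linear_combination (d - 1) * h3
  have hdet0 : M.det ≠ 0 := by rw [hdet]; exact hd
  refine ⟨Matrix.GeneralLinearGroup.mkOfDetNeZero M hdet0, ?_, hdet⟩
  show M * cycM F = cycM F * M
  ext i j
  fin_cases i <;> fin_cases j <;> simp [M, cycM, Matrix.mul_apply, Fin.sum_univ_succ]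

theorem exists_conj_cyc (h3 : (3 : F) = 1) (A : GL (Fin 3) F) :
    ∃ b : SLt F, (cj A : MulAut (SLt F)) (cyc F) = b * cyc F * b⁻¹ := by
  have hdA : (A : Matrix (Fin 3) (Fin 3) F).det ≠ 0 := by
    have := A.isUnit
    rw [Matrix.isUnit_iff_isUnit_det] at this
    exact this.ne_zero
  obtain ⟨B, hB, hBd⟩ := exists_comm h3 _ (inv_ne_zero hdA)
  have hdet : ((A * B : GL (Fin 3) F) : Matrix (Fin 3) (Fin 3) F).det = 1 := by
    rw [Units.val_mul, det_mul, hBd, mul_inv_cancel₀ hdA]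
  obtain ⟨b, h1⟩ : ∃ b : SLt F, Matrix.SpecialLinearGroup.toGL b = A * B := ⟨⟨_, hdet⟩, Units.ext rfl⟩
  refine ⟨b, ?_⟩
  rw [← cj_toGL, h1, map_mul, MulAut.mul_apply]
  congr 1
  apply Subtype.ext
  rw [coe_cj]
  show cycM F = (B : Matrix (Fin 3) (Fin 3) F) * cycM F * ((B⁻¹ : GL (Fin 3) F) : Matrix (Fin 3) (Fin 3) F)
  rw [hB, mul_assoc, ← Units.val_mul, mul_inv_cancel, Units.val_one, mul_one]

end

section

variable {X : Type*} [Group X] [Finite X] {σ : Set ℕ} {S : Subgroup X} [S.Normal] {F : Type*} [Field F] [Finite F]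

theorem psl3_four (hS : S ≠ ⊤)
    (hσ : ∀ r : ℕ, r.Prime → r ∣ S.index → r ∈ σ) (hc : HC X σ) (hq : Nat.card F = 4) (e : S ≃* PSLt F) : False := by
  have hft : Fintype F := Fintype.ofFinite F
  have hp2 : Fact (Nat.Prime 2) := ⟨Nat.prime_two⟩
  have hchar : CharP F 2 := by
    obtain ⟨p, hp⟩ := CharP.exists F
    obtain ⟨n, hpp, hn⟩ := FiniteField.card F p
    rw [← Nat.card_eq_fintype_card, hq] at hn
    have h1 : p ∣ 2 ^ 2 := by
      rw [show (2 : ℕ) ^ 2 = 4 from rfl, hn]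
      exact dvd_pow_self p n.ne_zero
    have h2 : p = 2 := (Nat.prime_dvd_prime_iff_eq hpp Nat.prime_two).1 (hpp.dvd_of_dvd_pow h1)
    rw [← h2]; exact hp
  have h3F : (3 : F) = 1 := by
    have h2 : (2 : F) = 0 := CharTwo.two_eq_zero
    linear_combination h2
  obtain ⟨y, hy⟩ := e.surjective (pr (cyc F))
  have hy3 : orderOf (y : X) = 3 := by
    rw [Subgroup.orderOf_coe, ← MulEquiv.orderOf_eq e y, hy, order_cyc]
  have h3σ : 3 ∈ σ := by
    refine mem_of_class hS hσ hc Nat.prime_three hy3 fun h => ?_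
    obtain ⟨A, hA⟩ : ∃ A : GL (Fin 3) F, act e h (pr (cyc F)) = pr ((cj A : MulAut (SLt F)) (cyc F)) := by
      rcases surj_three 2 le_rfl (act e h) with ⟨A, τ, hA⟩ | ⟨A, τ, hA⟩
      · refine ⟨A, ?_⟩
        rw [hA, lift_pr, MulAut.mul_apply, fld_cyc]
      · refine ⟨A, ?_⟩
        rw [hA, lift_pr, MulAut.mul_apply, MulAut.mul_apply, itr_cyc, fld_cyc]
    obtain ⟨b, hb⟩ := exists_conj_cyc h3F A
    obtain ⟨s, hs⟩ := e.surjective (pr b)
    refine ⟨s, s.2, ?_⟩
    have h1 : e (s * y * s⁻¹) = e ⟨h * y * h⁻¹, (inferInstance : S.Normal).conj_mem y y.2 h⟩ := by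
      have h2 : pr (b * cyc F * b⁻¹) = pr b * pr (cyc F) * (pr b)⁻¹ := by rw [map_mul, map_mul, map_inv]
      rw [← act_apply, hy, hA, hb, map_mul, map_mul, map_inv, hs, hy, h2]
    exact congrArg Subtype.val (e.injective h1)
  obtain ⟨L, -, hL⟩ := hc.cov (y : X) 3 Nat.prime_three (by rw [hy3]) h3σ
  have key : ∀ (e : S ≃* PSLt F) (x : Projectivization F (Fin 3 → F)), KK e L ≤ stabilizer (SLt F) x → False := by
    intro e x hx
    have h1 := Subgroup.index_dvd_of_le hx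
    rw [index_stab, hq, index_KK] at h1
    have h2 : 3 ∣ ∑ i ∈ Finset.range 3, 4 ^ i := by decide
    exact (hall_inf (S := S) hL).index 3 Nat.prime_three h3σ (h2.trans h1)
  rcases le_stab (p := 2) hc.two e hL (hall_ne_top hσ hc hL) with ⟨x, hx⟩ | ⟨x, hx⟩
  · exact key _ x hx
  · exact key _ x hx

/-- an almost simple group `X` with socle `S ≅ PSL_3(q)`, `q ≥ 3`, `q = 4` or `3 ∤ q - 1`, `X ≠ S`, has no Hall covering -/
theorem not_psl3 (hC : Subgroup.centralizer (S : Set X) = ⊥) (hS : S ≠ ⊤)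
    (hσ : ∀ r : ℕ, r.Prime → r ∣ S.index → r ∈ σ) (hc : HC X σ) (hq : 3 ≤ Nat.card F)
    (h3 : Nat.card F = 4 ∨ ¬ 3 ∣ Nat.card F - 1)
    (e : S ≃* Matrix.ProjectiveSpecialLinearGroup (Fin 3) F) : False := by
  rcases h3 with h | h
  · exact psl3_four hS hσ hc h e
  · obtain ⟨p, hp⟩ := CharP.exists F
    have : Fact p.Prime := ⟨CharP.char_is_prime F p⟩
    exact psl3_odd (p := p) hS hC hσ hc hq h e

end

end Cfsg.Agent.H937.HCPsl3
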