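import Cfsg.Agent.H937.SzConj
import Cfsg.Agent.H937.HCGen
import Cfsg.Agent.S0325

/-!
# Almost simple groups with socle `Sz(q)` have no Hall covering (helper937, for S4388)
-/

set_option autoImplicit false

namespace Cfsg.Agent.H937.HCSz

open Cfsg.Agent.LieExceptional Cfsg.Agent.LieExceptional.SuzukiTori Cfsg.Agent.LieExceptional.SuzukiHyp
open Cfsg.Agent.LieExceptional.SuzukiBasic Cfsg.Agent.LieExceptional.SuzukiSylow
open Cfsg.Agent.H98.SzBasic Cfsg.Agent.H581 Cfsg.Agent.H937.HCGen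

/-- elements of order 5: conjugacy of powers -/
theorem conj_of_mem {G : Type*} [Group G] {x y : G} (hx : orderOf x = 5) {q : ℕ} (hres : q % 5 = 2 ∨ q % 5 = 3)
    (hq1 : IsConj x (x ^ q)) (hz : y ∈ Subgroup.zpowers x) (hyt : orderOf y = 5) : IsConj x y := by
  have hpow : ∀ (n : ℕ) (a b : G), IsConj a b → IsConj (a ^ n) (b ^ n) := by
    intro n a b hab
    obtain ⟨c, hc⟩ := isConj_iff.1 hab
    exact isConj_iff.2 ⟨c, by rw [← hc, conj_pow]⟩
  have hq2 : IsConj x (x ^ (q ^ 2)) := by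
    have := hpow q _ _ hq1
    rw [← pow_mul, ← sq] at this
    exact hq1.trans this
  have hq3 : IsConj x (x ^ (q ^ 3)) := by
    have := hpow q _ _ hq2
    rw [← pow_mul, ← pow_succ] at this
    exact hq1.trans this
  obtain ⟨n, hn⟩ := Subgroup.mem_zpowers_iff.1 hz
  have hmod : ∀ k : ℕ, x ^ k = x ^ (k % 5) := fun k => by rw [← pow_mod_orderOf, hx]
  have hconj : ∀ k : ℕ, k % 5 ≠ 0 → IsConj x (x ^ k) := by
    intro k hk
    rw [hmod k]
    rw [hmod q] at hq1
    rw [hmod (q ^ 2), Nat.pow_mod] at hq2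
    rw [hmod (q ^ 3), Nat.pow_mod] at hq3
    have hk5 : k % 5 < 5 := Nat.mod_lt _ (by norm_num)
    rcases hres with h | h
    · rw [h] at hq1 hq2 hq3
      rw [show (2 : ℕ) ^ 2 % 5 = 4 from rfl] at hq2
      rw [show (2 : ℕ) ^ 3 % 5 = 3 from rfl] at hq3
      interval_cases (k % 5)
      · exact absurd rfl hk
      · rw [pow_one]
      · exact hq1
      · exact hq3
      · exact hq2
    · rw [h] at hq1 hq2 hq3
      rw [show (3 : ℕ) ^ 2 % 5 = 4 from rfl] at hq2
      rw [show (3 : ℕ) ^ 3 % 5 = 2 from rfl] at hq3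
      interval_cases (k % 5)
      · exact absurd rfl hk
      · rw [pow_one]
      · exact hq3
      · exact hq1
      · exact hq2
  obtain ⟨k, hk⟩ : ∃ k : ℕ, x ^ k = x ^ n := by
    refine ⟨(n % 5).toNat, ?_⟩
    have h1 : (0 : ℤ) ≤ n % 5 := Int.emod_nonneg _ (by norm_num)
    rw [← zpow_natCast, Int.toNat_of_nonneg h1]
    have := zpow_mod_orderOf x n
    rw [hx] at this
    exact_mod_cast this
  have hk0 : k % 5 ≠ 0 := by
    intro h0
    have h1 : x ^ k = 1 := by
      rw [hmod, h0, pow_zero]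
    rw [← hn, ← hk, h1, orderOf_one] at hyt
    omega
  have h1 := hconj k hk0
  rwa [hk, hn] at h1

section

variable {F : Type*} [Field F] [Fintype F] {m : ℕ}

theorem five_dvd (m : ℕ) : 5 ∣ (2 ^ (2 * m + 1)) ^ 2 + 1 := by
  have h1 : (2 ^ (2 * m + 1)) ^ 2 = 16 ^ m * 4 := by
    rw [← pow_mul, show (2 * m + 1) * 2 = 4 * m + 2 by ring, pow_add, pow_mul]; norm_num
  rw [h1, Nat.dvd_iff_mod_eq_zero, Nat.add_mod, Nat.mul_mod, Nat.pow_mod]
  norm_num

theorem five_free (hm : 1 ≤ m) (hF : Fintype.card F = 2 ^ (2 * m + 1)) {x : Cfsg.Sz F m} (hx : 5 ∣ orderOf x) :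
    x ∈ SuzukiTori.Hyp.free (Cfsg.Sz F m) (Cfsg.suzukiOvoid F m) := by
  have : Finite (Cfsg.suzukiOvoid F m) := finite_ovoid F m
  have H := hyp hm hF
  have hx1 : x ≠ 1 := by
    rintro rfl
    rw [orderOf_one] at hx
    omega
  rcases trichotomy hm hF hx1 with h | ⟨y, k, hk, e⟩ | ⟨y, a, b, hab, e⟩
  · exact h
  · exfalso
    have h1 : orderOf x = orderOf (h hF (m := m) k) := by
      rw [← e]; exact (MulEquiv.orderOf_eq (MulAut.conj y) x).symm
    have h2 : orderOf (h hF (m := m) k) ∣ Fintype.card F - 1 := by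
      apply orderOf_dvd_of_pow_eq_one
      have h3 : hHom hF (m := m) k ^ (Fintype.card F - 1) = 1 := by
        rw [← map_pow]
        have h4 : k ^ (Fintype.card F - 1) = 1 := by
          apply Units.ext
          rw [Units.val_pow_eq_pow_val, FiniteField.pow_card_sub_one_eq_one _ k.ne_zero, Units.val_one]
        rw [h4, map_one]
      exact h3
    have h5 : 5 ∣ 2 ^ (2 * m + 1) - 1 := by
      rw [h1] at hx
      rw [← hF]
      exact hx.trans h2
    exact (H.prime_dvd_facts Nat.prime_five (five_dvd m)).2 (h5.mul_left _)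
  · exfalso
    have h0 : x ∈ ((y⁻¹ • SuzukiSylow.sylowQ hm hF : Sylow 2 (Cfsg.Sz F m)) : Subgroup (Cfsg.Sz F m)) := by
      rw [mem_smul_sylowQ_iff]
      exact ⟨a, b, by rw [inv_inv]; exact e⟩
    obtain ⟨n, hn⟩ := (y⁻¹ • SuzukiSylow.sylowQ hm hF : Sylow 2 (Cfsg.Sz F m)).2 ⟨x, h0⟩
    have h3 : x ^ 2 ^ n = 1 := congrArg Subtype.val hn
    have h4 := hx.trans (orderOf_dvd_of_pow_eq_one h3)
    have h5 := Nat.Prime.dvd_of_dvd_pow Nat.prime_five h4
    omega

/-- the elements of order 5 of `Sz(q)` are conjugate -/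
theorem five_conj' (hm : 1 ≤ m) (hF : Fintype.card F = 2 ^ (2 * m + 1)) {x y : Cfsg.Sz F m}
    (hx : orderOf x = 5) (hy : orderOf y = 5) : IsConj x y := by
  have : Finite (Cfsg.suzukiOvoid F m) := finite_ovoid F m
  have H := hyp hm hF
  have hxf := five_free hm hF (x := x) (by rw [hx])
  have hyf := five_free hm hF (x := y) (by rw [hy])
  have hmem : ∀ z : Cfsg.Sz F m, z ∈ Subgroup.centralizer ({z} : Set (Cfsg.Sz F m)) := fun z =>
    Subgroup.mem_centralizer_singleton_iff.2 rfl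
  have hdvd : ∀ z : Cfsg.Sz F m, orderOf z = 5 → 5 ∣ Nat.card (Subgroup.centralizer ({z} : Set (Cfsg.Sz F m))) := by
    intro z hz
    rw [← hz]
    exact Subgroup.orderOf_dvd_natCard _ (hmem z)
  obtain ⟨hy1, t, ht⟩ := H.mem_tset_of_dvd hxf hyf Nat.prime_five (hdvd x hx) (hdvd y hy)
  have hyt : orderOf (t⁻¹ * y * t) = 5 := by
    rw [← hy]
    have := MulEquiv.orderOf_eq (MulAut.conj t⁻¹) y
    rwa [MulAut.conj_apply, inv_inv] at this
  have hcyc := isCyclic_centralizer hm hF hxf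
  -- in the cyclic group `C(x)` the element lies in `⟨x⟩`
  have hz : t⁻¹ * y * t ∈ Subgroup.zpowers x := by
    set C := Subgroup.centralizer ({x} : Set (Cfsg.Sz F m))
    classical
    have : Fintype C := Fintype.ofFinite C
    have h1 := IsCyclic.card_pow_eq_one_le (α := C) (n := 5) (by norm_num)
    have h2 : orderOf (⟨x, hmem x⟩ : C) = 5 := by rw [← Subgroup.orderOf_coe]; exact hx
    have h3 : ((Finset.univ : Finset C).filter fun a => a ^ 5 = 1) =
        (Finset.univ : Finset (Subgroup.zpowers (⟨x, hmem x⟩ : C))).map ⟨Subtype.val, Subtype.val_injective⟩ := by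
      symm
      apply Finset.eq_of_subset_of_card_le
      · intro a ha
        rw [Finset.mem_map] at ha
        obtain ⟨⟨b, hb⟩, -, rfl⟩ := ha
        rw [Finset.mem_filter]
        refine ⟨Finset.mem_univ _, ?_⟩
        obtain ⟨n, rfl⟩ := hb
        show ((⟨x, hmem x⟩ : C) ^ n) ^ 5 = 1
        rw [← zpow_natCast, ← zpow_mul, mul_comm, zpow_mul, zpow_natCast, ← h2, pow_orderOf_eq_one, one_zpow]
      · rw [Finset.card_map, Finset.card_univ, Fintype.card_zpowers, h2]
        exact h1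
    have h4 : (⟨t⁻¹ * y * t, ht⟩ : C) ∈ ((Finset.univ : Finset C).filter fun a => a ^ 5 = 1) := by
      rw [Finset.mem_filter]
      refine ⟨Finset.mem_univ _, Subtype.ext ?_⟩
      show (t⁻¹ * y * t) ^ 5 = 1
      rw [← hyt, pow_orderOf_eq_one]
    rw [h3, Finset.mem_map] at h4
    obtain ⟨⟨b, n, hn⟩, -, hb⟩ := h4
    refine ⟨n, ?_⟩
    have h5 : ((⟨x, hmem x⟩ : C) ^ n) = ⟨t⁻¹ * y * t, ht⟩ := hn.trans hb
    exact congrArg Subtype.val h5
  -- all powers are conjugate
  have hodd : Odd (orderOf x) := by rw [hx]; decide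
  have hq1 : IsConj x (x ^ Fintype.card F) := by
    have := Cfsg.Agent.H937.SzConj.sz_conj' hm hF hodd
    rwa [Nat.card_eq_fintype_card] at this
  have hres : Fintype.card F % 5 = 2 ∨ Fintype.card F % 5 = 3 := by
    rw [hF, pow_succ, pow_mul, Nat.mul_mod, Nat.pow_mod]
    norm_num
    have : ∀ k : ℕ, 4 ^ k % 5 = 1 ∨ 4 ^ k % 5 = 4 := by
      intro k
      induction k with
      | zero => left; rfl
      | succ k ih => rw [pow_succ, Nat.mul_mod]; rcases ih with h | h <;> rw [h] <;> norm_num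
    rcases this m with h | h <;> omega
  refine (conj_of_mem hx hres hq1 hz hyt).trans ?_
  exact isConj_iff.2 ⟨t, by group⟩

/-- a subgroup of `Sz(q)` of odd index and order divisible by 5 is everything -/
theorem eq_top_of' (hm : 1 ≤ m) (hF : Fintype.card F = 2 ^ (2 * m + 1)) {K : Subgroup (Cfsg.Sz F m)}
    (h2 : ¬ 2 ∣ K.index) (h5 : 5 ∣ Nat.card K) : K = ⊤ := by
  have : Finite (Cfsg.suzukiOvoid F m) := finite_ovoid F m
  have : Fact (Nat.Prime 2) := ⟨Nat.prime_two⟩
  -- reduction to `Q ≤ K`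
  wlog hQ : (sylowQ hm hF : Subgroup (Cfsg.Sz F m)) ≤ K generalizing K
  · obtain ⟨P⟩ : Nonempty (Sylow 2 K) := inferInstance
    have hidx : ¬ 2 ∣ ((P : Subgroup K).map K.subtype).index := by
      rw [Subgroup.index_map_subtype, Nat.prime_two.dvd_mul]
      rintro (h | h)
      · exact P.not_dvd_index h
      · exact h2 h
    let P' : Sylow 2 (Cfsg.Sz F m) := (P.isPGroup'.map K.subtype).toSylow hidx
    obtain ⟨g, hg⟩ := MulAction.exists_smul_eq (Cfsg.Sz F m) P' (sylowQ hm hF)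
    have h3 := this (K := K.map (MulAut.conj g).toMonoidHom) (by
      rwa [Subgroup.index_map_of_bijective (MulAut.conj g).bijective]) (by
      rwa [← Nat.card_congr (K.equivMapOfInjective _ (MulAut.conj g).injective).toEquiv]) (by
      rw [← hg]
      have h4 : ((g • P' : Sylow 2 (Cfsg.Sz F m)) : Subgroup (Cfsg.Sz F m)) =
          (P' : Subgroup (Cfsg.Sz F m)).map (MulAut.conj g).toMonoidHom := rfl
      rw [h4]
      exact Subgroup.map_mono (Subgroup.map_subtype_le _))
    have h4 : (⊤ : Subgroup (Cfsg.Sz F m)).map (MulAut.conj g).toMonoidHom = ⊤ :=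
      Subgroup.map_top_of_surjective _ (MulAut.conj g).surjective
    exact Subgroup.map_injective (MulAut.conj g).injective (h3.trans h4.symm)
  have hsimple : IsSimpleGroup (Cfsg.Sz F m) := Cfsg.Agent.S0325.result hm hF
  have hQu : ∀ a b : F, u hF a b ∈ K := fun a b => hQ (by
    rw [coe_sylowQ]; exact ⟨a, b, rfl⟩)
  by_cases hfix : ∀ k ∈ K, k • inf F m = inf F m
  · exfalso
    have : Fact (Nat.Prime 5) := ⟨Nat.prime_five⟩
    obtain ⟨x, hx⟩ := exists_prime_orderOf_dvd_card' (G := K) 5 h5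
    have h6 := five_free hm hF (x := (x : Cfsg.Sz F m)) (by rw [Subgroup.orderOf_coe, hx])
    exact (SuzukiTori.Hyp.mem_free_iff.1 h6) (inf F m) (hfix x x.2)
  · push Not at hfix
    obtain ⟨k, hk, hki⟩ := hfix
    -- `K` is transitive on the ovoid
    have htr : ∀ p : Cfsg.suzukiOvoid F m, ∃ l ∈ K, l • inf F m = p := by
      intro p
      rcases point_cases p with rfl | ⟨x, y, rfl⟩
      · exact ⟨1, K.one_mem, one_smul _ _⟩
      · obtain ⟨x', y', hxy⟩ : ∃ x y, k • inf F m = opt m x y := by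
          rcases point_cases (k • inf F m) with h | h
          · exact absurd h hki
          · exact h
        refine ⟨u hF x y * (u hF x' y')⁻¹ * k, K.mul_mem (K.mul_mem (hQu _ _) (K.inv_mem (hQu _ _))) hk, ?_⟩
        rw [mul_smul, mul_smul, hxy, ← u_smul_zer hF x' y', inv_smul_smul, u_smul_zer]
    have hnorm : Subgroup.normalClosure ((sylowQ hm hF : Subgroup (Cfsg.Sz F m)) : Set (Cfsg.Sz F m)) ≤ K := by
      rw [Subgroup.normalClosure, Subgroup.closure_le]
      intro z hz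
      rw [Group.mem_conjugatesOfSet_iff] at hz
      obtain ⟨a, ha, hconj⟩ := hz
      obtain ⟨g, hg⟩ := isConj_iff.1 hconj
      obtain ⟨l, hl, hl2⟩ := htr (g • inf F m)
      have h7 : (l⁻¹ * g) • sylowQ hm hF = sylowQ hm hF := by
        rw [smul_sylowQ_eq_iff, mul_smul, ← hl2, inv_smul_smul]
      have h8 : (l⁻¹ * g) * a * (l⁻¹ * g)⁻¹ ∈ ((sylowQ hm hF : Subgroup (Cfsg.Sz F m)) : Set (Cfsg.Sz F m)) := by
        rw [Sylow.smul_eq_iff_mem_normalizer] at h7
        exact (Subgroup.mem_normalizer_iff.1 h7 a).1 ha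
      have h9 : z = l * ((l⁻¹ * g) * a * (l⁻¹ * g)⁻¹) * l⁻¹ := by
        rw [← hg]; group
      rw [h9]
      exact K.mul_mem (K.mul_mem hl (hQ h8)) (K.inv_mem hl)
    have hne : Subgroup.normalClosure ((sylowQ hm hF : Subgroup (Cfsg.Sz F m)) : Set (Cfsg.Sz F m)) ≠ ⊥ := by
      intro h0
      have h10 : u hF (1 : F) 0 ∈ Subgroup.normalClosure
          ((sylowQ hm hF : Subgroup (Cfsg.Sz F m)) : Set (Cfsg.Sz F m)) := by
        apply Subgroup.subset_normalClosure
        show _ ∈ ((sylowQ hm hF : Subgroup (Cfsg.Sz F m)) : Set (Cfsg.Sz F m))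
        rw [coe_sylowQ]
        exact ⟨1, 0, rfl⟩
      rw [h0, Subgroup.mem_bot, u_eq_one_iff] at h10
      exact one_ne_zero h10.1
    have htop : Subgroup.normalClosure ((sylowQ hm hF : Subgroup (Cfsg.Sz F m)) : Set (Cfsg.Sz F m)) = ⊤ :=
      (Subgroup.normalClosure_normal.eq_bot_or_eq_top).resolve_left hne
    rw [htop] at hnorm
    exact top_le_iff.1 hnorm

end

/-- an almost simple group with socle `Sz(q)`, different from it, has no Hall covering -/
theorem not_suzuki {X : Type*} [Group X] [Finite X] {σ : Set ℕ} {S : Subgroup X} [S.Normal]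
    (hS : S ≠ ⊤) (hσ : ∀ r : ℕ, r.Prime → r ∣ S.index → r ∈ σ) (hc : HC X σ) (h : Cfsg.Lie.IsoSuzuki S) : False := by
  obtain ⟨F, hF1, hF2, m, hm, hF, ⟨e0⟩⟩ := h
  obtain ⟨e1⟩ := Cfsg.Agent.OddCyclic.ClaimC.SzIso.iso (F := F) hm hF
  let e : S ≃* Cfsg.Sz F m := e0.trans e1.symm
  have : Finite (Cfsg.suzukiOvoid F m) := finite_ovoid F m
  have H := hyp (F := F) hm hF
  have hcard : Nat.card S = (2 ^ (2 * m + 1)) ^ 2 * ((2 ^ (2 * m + 1)) - 1) * ((2 ^ (2 * m + 1)) ^ 2 + 1) := by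
    rw [Nat.card_congr e.toEquiv, H.card_group]
  have h5S : 5 ∣ Nat.card S := by
    rw [hcard]
    exact (five_dvd m).mul_left _
  have h5 : 5 ∈ σ := by
    refine mem_of_conj hS hσ hc Nat.prime_five h5S fun x y hx hy => ?_
    have h1 := five_conj' hm hF (x := e x) (y := e y) (by rw [MulEquiv.orderOf_eq, hx]) (by rw [MulEquiv.orderOf_eq, hy])
    obtain ⟨c, hc⟩ := isConj_iff.1 h1
    refine isConj_iff.2 ⟨e.symm c, e.injective ?_⟩
    rw [map_mul, map_mul, map_inv, e.apply_symm_apply, hc]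
  obtain ⟨L, hL⟩ := hc.exists_hall (by
    have h2 : 2 ∣ Nat.card S := by
      rw [hcard, mul_assoc]
      exact Dvd.dvd.mul_right (dvd_pow (dvd_pow_self 2 (by omega)) two_ne_zero) _
    exact h2.trans (Subgroup.card_subgroup_dvd_card S))
  have hLS := hall_inf (S := S) hL
  have hne := hall_ne_top hσ hc hL
  have hcard5 : 5 ∣ Nat.card (L.subgroupOf S) := by
    have := hLS.dvd_card (k := 1) Nat.prime_five h5 (by rwa [pow_one])
    rwa [pow_one] at this
  apply hne
  have h6 := eq_top_of' hm hF (K := (L.subgroupOf S).map e.toMonoidHom) (by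
    rw [Subgroup.index_map_of_bijective e.bijective]
    exact hLS.index 2 Nat.prime_two hc.two) (by
    rwa [← Nat.card_congr ((L.subgroupOf S).equivMapOfInjective _ e.injective).toEquiv])
  have h7 : (⊤ : Subgroup S).map e.toMonoidHom = ⊤ := Subgroup.map_top_of_surjective _ e.surjective
  exact Subgroup.map_injective e.injective (h6.trans h7.symm)

end Cfsg.Agent.H937.HCSz
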